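import Mathlib

/-! Ladder SCN (S3921): groups in which every non-cyclic subgroup contains its centralizer. -/

namespace Cfsg.Agent.Lib.Helper73.SCN

/-- Every non-cyclic subgroup contains its centralizer. -/
def SC (G : Type*) [Group G] : Prop :=
  ∀ H : Subgroup G, ¬ IsCyclic ↥H → Subgroup.centralizer (H : Set G) ≤ H

theorem SC.of_equiv {G G' : Type*} [Group G] [Group G'] (e : G ≃* G') (h : SC G) : SC G' := by
  intro H hH x hx
  have h1 : ¬ IsCyclic ↥(H.comap e.toMonoidHom) := by
    intro hc
    apply hH
    have e2 : ↥(H.comap e.toMonoidHom) ≃* ↥H := by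
      have := e.subgroupMap (H.comap e.toMonoidHom)
      have h3 : (H.comap e.toMonoidHom).map e.toMonoidHom = H :=
        Subgroup.map_comap_eq_self_of_surjective e.surjective H
      exact this.trans (MulEquiv.subgroupCongr h3)
    exact isCyclic_of_surjective e2 e2.surjective
  have h2 := h _ h1
  have h3 : e.symm x ∈ Subgroup.centralizer ((H.comap e.toMonoidHom : Subgroup G) : Set G) := by
    rw [Subgroup.mem_centralizer_iff]
    intro y hy
    have hy' : e y ∈ H := hy
    have := (Subgroup.mem_centralizer_iff.mp hx) (e y) hy'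
    apply e.injective
    simpa using this
  have h4 := h2 h3
  have : e (e.symm x) ∈ H := h4
  simpa using this

theorem SC.subgroup {G : Type*} [Group G] (h : SC G) (K : Subgroup G) : SC ↥K := by
  intro H hH x hx
  have h1 : ¬ IsCyclic ↥(H.map K.subtype) := by
    intro hc
    apply hH
    have e2 : ↥H ≃* ↥(H.map K.subtype) := H.equivMapOfInjective K.subtype K.subtype_injective
    exact isCyclic_of_surjective e2.symm e2.symm.surjective
  have h2 := h _ h1
  have h3 : (x : G) ∈ Subgroup.centralizer ((H.map K.subtype : Subgroup G) : Set G) := by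
    rw [Subgroup.mem_centralizer_iff]
    rintro _ ⟨y, hy, rfl⟩
    have := (Subgroup.mem_centralizer_iff.mp hx) y hy
    exact congrArg Subtype.val this
  obtain ⟨y, hy, hyx⟩ := h2 h3
  have : y = x := Subtype.ext hyx
  exact this ▸ hy

/-- elementwise form -/
theorem SC.mem {G : Type*} [Group G] (h : SC G) (H : Subgroup G) (hH : ¬ IsCyclic ↥H) (c : G)
    (hc : ∀ x ∈ H, x * c = c * x) : c ∈ H :=
  h H hH (Subgroup.mem_centralizer_iff.mpr hc)

end Cfsg.Agent.Lib.Helper73.SCN
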