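import Mathlib
import Cfsg.Agent.Lib.Helper73.SCN.Defs
import Cfsg.Agent.S0200

set_option autoImplicit false

namespace Cfsg.Agent.Lib.Helper73.SCN

theorem cz_eq_one_of_pow {G : Type*} [Group G] {w : G} {m k : ℕ} (hm : w ^ m = 1)
    (hk : w ^ k = 1) (h : m.Coprime k) : w = 1 := by
  have := (pow_gcd_eq_one (a := w) (m := m) (n := k)).mpr ⟨hm, hk⟩
  rwa [h.gcd_eq_one, pow_one] at this

/-- elements of a group generated by `y` and an involution `v` inverting it -/
theorem cz_dih_mem {G : Type*} [Group G] {y v : G} (hv : v * v = 1) (hinv : v * y * v⁻¹ = y⁻¹)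
    {x : G} (hx : x ∈ Subgroup.closure ({y, v} : Set G)) :
    (∃ i : ℤ, x = y ^ i) ∨ (∃ i : ℤ, x = y ^ i * v) := by
  have hvi : v⁻¹ = v := inv_eq_of_mul_eq_one_left hv
  have hsw : ∀ i : ℤ, v * y ^ i = y ^ (-i) * v := by
    intro i
    have h1 : v * y ^ i * v⁻¹ = y ^ (-i) := by
      rw [← conj_zpow, hinv, inv_zpow, zpow_neg]
    calc v * y ^ i = v * y ^ i * v⁻¹ * v := by group
      _ = y ^ (-i) * v := by rw [h1]
  induction hx using Subgroup.closure_induction with
  | mem x hx =>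
    rcases hx with rfl | hx
    · exact Or.inl ⟨1, (zpow_one _).symm⟩
    · rw [Set.mem_singleton_iff] at hx
      subst hx
      exact Or.inr ⟨0, by simp⟩
  | one => exact Or.inl ⟨0, by simp⟩
  | mul s t _ _ hs ht =>
    rcases hs with ⟨i, rfl⟩ | ⟨i, rfl⟩ <;> rcases ht with ⟨j, rfl⟩ | ⟨j, rfl⟩
    · exact Or.inl ⟨i + j, (zpow_add _ _ _).symm⟩
    · exact Or.inr ⟨i + j, by rw [zpow_add, mul_assoc]⟩
    · exact Or.inr ⟨i + -j, by rw [mul_assoc, hsw, zpow_add, mul_assoc]⟩
    · refine Or.inl ⟨i + -j, ?_⟩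
      calc y ^ i * v * (y ^ j * v) = y ^ i * (v * y ^ j) * v := by group
        _ = y ^ i * y ^ (-j) * (v * v) := by rw [hsw]; group
        _ = y ^ (i + -j) := by rw [hv, mul_one, zpow_add]
  | inv s _ hs =>
    rcases hs with ⟨i, rfl⟩ | ⟨i, rfl⟩
    · exact Or.inl ⟨-i, (zpow_neg _ _).symm⟩
    · refine Or.inr ⟨i, ?_⟩
      rw [mul_inv_rev, hvi, ← zpow_neg, hsw, neg_neg]

theorem cz_no_inverted {G : Type*} [Group G] (h : SC G) {z y v : G} (hz1 : z ≠ 1)
    (hzz : z * z = 1) (hv : v * v = 1) (hy1 : y ≠ 1) (hyo : Odd (orderOf y))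
    (hinv : v * y * v⁻¹ = y⁻¹) (hzy : z * y = y * z) (hzv : z * v = v * z) : False := by
  have hnc : v * y ≠ y * v := by
    intro hc
    apply hy1
    have h1 : y = y⁻¹ := by
      rw [← hinv, hc]
      group
    have h2 : y ^ 2 = 1 := by
      rw [sq]
      nth_rewrite 1 [h1]
      group
    exact cz_eq_one_of_pow (pow_orderOf_eq_one y) h2 (Nat.coprime_two_right.mpr hyo)
  have hncyc : ¬ IsCyclic ↥(Subgroup.closure ({y, v} : Set G)) := by
    intro hc
    apply hnc
    have hy : y ∈ Subgroup.closure ({y, v} : Set G) := Subgroup.subset_closure (by simp)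
    have hvm : v ∈ Subgroup.closure ({y, v} : Set G) := Subgroup.subset_closure (by simp)
    have := (IsCyclic.commGroup (α := ↥(Subgroup.closure ({y, v} : Set G)))).mul_comm
      ⟨v, hvm⟩ ⟨y, hy⟩
    exact congrArg Subtype.val this
  have hle : Subgroup.closure ({y, v} : Set G) ≤ Subgroup.centralizer ({z} : Set G) := by
    rw [Subgroup.closure_le]
    rintro x (rfl | hx)
    · exact Subgroup.mem_centralizer_singleton_iff.mpr hzy.symm
    · rw [Set.mem_singleton_iff] at hx
      subst hx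
      exact Subgroup.mem_centralizer_singleton_iff.mpr hzv.symm
  have hzH := h.mem _ hncyc z (fun x hx => Subgroup.mem_centralizer_singleton_iff.mp (hle hx))
  rcases cz_dih_mem hv hinv hzH with ⟨i, hi⟩ | ⟨i, hi⟩
  · apply hz1
    have h1 : z ^ orderOf y = 1 := by
      rw [hi, ← zpow_natCast, ← zpow_mul, mul_comm, zpow_mul, zpow_natCast, pow_orderOf_eq_one,
        one_zpow]
    have h2 : z ^ 2 = 1 := by rw [sq, hzz]
    exact cz_eq_one_of_pow h1 h2 (Nat.coprime_two_right.mpr hyo)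
  · apply hnc
    rw [hi] at hzy
    have h1 : y ^ i * (v * y) = y ^ i * (y * v) := by
      calc y ^ i * (v * y) = y ^ i * v * y := by group
        _ = y * (y ^ i * v) := hzy
        _ = y ^ i * (y * v) := by group
    exact mul_left_cancel h1

/-- normal `2`-subgroups of an overgroup `X` of a Sylow `2`-subgroup lie in it -/
theorem cz_normal_le {G : Type*} [Group G] (S : Sylow 2 G) (X : Subgroup G)
    (hSX : (S : Subgroup G) ≤ X) (N : Subgroup X) (hN : N.Normal) (hN2 : IsPGroup 2 N) (t : X)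
    (ht : t ∈ N) : (t : G) ∈ (S : Subgroup G) := by
  have h1 : IsPGroup 2 ↥((S : Subgroup G).subgroupOf X) :=
    S.2.of_equiv (Subgroup.subgroupOfEquivOfLe hSX).symm
  have h2 : IsPGroup 2 ↥(N ⊔ (S : Subgroup G).subgroupOf X) := hN2.to_sup_of_normal_left h1
  have h3 : IsPGroup 2 ↥((N ⊔ (S : Subgroup G).subgroupOf X).map X.subtype) := h2.map _
  have h4 : (S : Subgroup G) ≤ (N ⊔ (S : Subgroup G).subgroupOf X).map X.subtype := by
    intro s hs
    exact ⟨⟨s, hSX hs⟩, (le_sup_right : _ ≤ N ⊔ (S : Subgroup G).subgroupOf X)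
      (Subgroup.mem_subgroupOf.mpr hs), rfl⟩
  have h5 := S.is_maximal' h3 h4
  rw [← h5]
  exact ⟨t, (le_sup_left : N ≤ N ⊔ (S : Subgroup G).subgroupOf X) ht, rfl⟩

/-- an element of odd order normalizing a cyclic `2`-group centralizes it -/
theorem cz_centralizes {G : Type*} [Group G] [Finite G] (A : Subgroup G) (hcyc : IsCyclic A)
    (e : ℕ) (hcard : Nat.card A = 2 ^ e) (y : G) (hy : y ∈ Subgroup.normalizer (A : Set G))
    (hodd : Odd (orderOf y)) : y ∈ Subgroup.centralizer (A : Set G) := by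
  have h1 : orderOf (A.normalizerMonoidHom ⟨y, hy⟩) ∣ orderOf y := by
    have := orderOf_map_dvd A.normalizerMonoidHom (⟨y, hy⟩ : Subgroup.normalizer (A : Set G))
    rwa [Subgroup.orderOf_mk] at this
  have h2 : orderOf (A.normalizerMonoidHom ⟨y, hy⟩) ∣ 2 ^ e := by
    refine (orderOf_dvd_natCard _).trans ?_
    rw [IsCyclic.card_mulAut, hcard]
    rcases e with _ | e
    · simp
    · rw [Nat.totient_prime_pow Nat.prime_two (Nat.succ_pos e)]
      simp only [Nat.reduceSub, mul_one]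
      exact pow_dvd_pow 2 (Nat.le_succ e)
  have h3 : orderOf (A.normalizerMonoidHom ⟨y, hy⟩) = 1 :=
    Nat.eq_one_of_dvd_coprimes (Nat.Coprime.pow_right e (Nat.coprime_two_right.mpr hodd)) h1 h2
  have h4 : (⟨y, hy⟩ : Subgroup.normalizer (A : Set G)) ∈ A.normalizerMonoidHom.ker :=
    orderOf_eq_one_iff.mp h3
  rw [Subgroup.normalizerMonoidHom_ker] at h4
  exact Subgroup.mem_subgroupOf.mp h4

/-- a group with two distinct involutions is not cyclic -/
theorem cz_not_cyclic {G : Type*} [Group G] [Finite G] (V : Subgroup G) {z b : G} (hz : z ∈ V)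
    (hb : b ∈ V) (hz1 : z ≠ 1) (hb1 : b ≠ 1) (hzb : z ≠ b) (hzz : z * z = 1) (hbb : b * b = 1) :
    ¬ IsCyclic V := by
  classical
  intro hc
  have : Fintype V := Fintype.ofFinite V
  have h1 := IsCyclic.card_pow_eq_one_le (α := V) (n := 2) (by norm_num)
  have h2 : ({1, ⟨z, hz⟩, ⟨b, hb⟩} : Finset V) ⊆ Finset.univ.filter (fun a : V => a ^ 2 = 1) := by
    intro x hx
    simp only [Finset.mem_insert, Finset.mem_singleton] at hx
    rw [Finset.mem_filter]
    refine ⟨Finset.mem_univ _, ?_⟩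
    rcases hx with rfl | rfl | rfl
    · simp
    · apply Subtype.ext
      simp [sq, hzz]
    · apply Subtype.ext
      simp [sq, hbb]
  have h3 : ({1, ⟨z, hz⟩, ⟨b, hb⟩} : Finset V).card = 3 := by
    rw [Finset.card_eq_three]
    refine ⟨1, ⟨z, hz⟩, ⟨b, hb⟩, ?_, ?_, ?_, rfl⟩
    · intro h; exact hz1 (congrArg Subtype.val h).symm
    · intro h; exact hb1 (congrArg Subtype.val h).symm
    · intro h; exact hzb (congrArg Subtype.val h)
  have h4 := Finset.card_le_card h2
  omega

theorem centralizer_eq {G : Type*} [Group G] [Finite G] (h : SC G) (S : Sylow 2 G) (n : ℕ)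
    (a b : G) (hn : 2 ≤ n) (hcard : Nat.card (S : Subgroup G) = 2 ^ n)
    (ha : a ∈ (S : Subgroup G)) (hb : b ∈ (S : Subgroup G)) (hoa : orderOf a = 2 ^ (n - 1))
    (hba : b ∉ Subgroup.zpowers a) (hb2 : b ^ 2 = 1)
    (hz : b * a ^ (2 ^ (n - 2)) * b⁻¹ = a ^ (2 ^ (n - 2))) :
    Subgroup.centralizer ({a ^ (2 ^ (n - 2))} : Set G) = (S : Subgroup G) := by
  classical
  obtain ⟨z, hzdef⟩ : ∃ z, z = a ^ (2 ^ (n - 2)) := ⟨_, rfl⟩
  rw [← hzdef] at hz ⊢
  have hN : 2 ^ (n - 1) = 2 * 2 ^ (n - 2) := by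
    obtain ⟨m, rfl⟩ : ∃ m, n = m + 2 := ⟨n - 2, by omega⟩
    have e1 : m + 2 - 1 = m + 1 := by omega
    have e2 : m + 2 - 2 = m := by omega
    rw [e1, e2, pow_succ]
    ring
  have hzz : z * z = 1 := by
    rw [hzdef, ← pow_add, ← two_mul, ← hN, ← hoa, pow_orderOf_eq_one]
  have hz1 : z ≠ 1 := by
    intro h1
    rw [hzdef] at h1
    have h2 := orderOf_dvd_of_pow_eq_one h1
    rw [hoa, hN] at h2
    have h3 := Nat.le_of_dvd (by positivity) h2
    have h4 : 0 < 2 ^ (n - 2) := by positivity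
    omega
  have hzC : z ∈ Subgroup.zpowers a := by
    rw [hzdef]
    exact Subgroup.pow_mem _ (Subgroup.mem_zpowers a) _
  have hbb : b * b = 1 := by rw [← sq, hb2]
  have hbi : b⁻¹ = b := inv_eq_of_mul_eq_one_left hbb
  have hb1 : b ≠ 1 := by
    rintro rfl
    exact hba (Subgroup.one_mem _)
  have hbz : b ≠ z := by
    rintro rfl
    exact hba hzC
  have hXmem : ∀ x, x ∈ Subgroup.centralizer ({z} : Set G) ↔ x * z = z * x :=
    fun x => Subgroup.mem_centralizer_singleton_iff
  have hCS : Subgroup.zpowers a ≤ (S : Subgroup G) := (Subgroup.zpowers_le).mpr ha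
  have hidx : ((Subgroup.zpowers a).subgroupOf (S : Subgroup G)).index = 2 := by
    have h1 := ((Subgroup.zpowers a).subgroupOf (S : Subgroup G)).card_mul_index
    rw [Nat.card_congr (Subgroup.subgroupOfEquivOfLe hCS).toEquiv, Nat.card_zpowers, hoa, hcard] at h1
    have h2 : 2 ^ n = 2 ^ (n - 1) * 2 := by
      obtain ⟨m, rfl⟩ : ∃ m, n = m + 1 := ⟨n - 1, by omega⟩
      rw [Nat.add_sub_cancel, pow_succ]
    rw [h2] at h1
    exact Nat.eq_of_mul_eq_mul_left (by positivity) h1
  have hmul : ∀ s ∈ (S : Subgroup G), ∀ t ∈ (S : Subgroup G),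
      (s * t ∈ Subgroup.zpowers a ↔ (s ∈ Subgroup.zpowers a ↔ t ∈ Subgroup.zpowers a)) := by
    intro s hs t ht
    have := Subgroup.mul_mem_iff_of_index_two hidx (a := (⟨s, hs⟩ : (S : Subgroup G)))
      (b := ⟨t, ht⟩)
    simpa [Subgroup.mem_subgroupOf] using this
  have hCX : Subgroup.zpowers a ≤ Subgroup.centralizer ({z} : Set G) := by
    rw [Subgroup.zpowers_le, hXmem, hzdef]
    exact ((Commute.refl a).pow_right _).eq
  have hbX : b ∈ Subgroup.centralizer ({z} : Set G) := by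
    rw [hXmem]
    calc b * z = b * z * b⁻¹ * b := by group
      _ = z * b := by rw [hz]
  have hSX : (S : Subgroup G) ≤ Subgroup.centralizer ({z} : Set G) := by
    intro s hs
    by_cases hsC : s ∈ Subgroup.zpowers a
    · exact hCX hsC
    · have h1 : b * s ∈ Subgroup.zpowers a := (hmul b hb s hs).mpr (by tauto)
      have h2 : s = b⁻¹ * (b * s) := by group
      rw [h2]
      exact Subgroup.mul_mem _ (Subgroup.inv_mem _ hbX) (hCX h1)
  -- involutions of `X` lie in `S`
  have hinvS : ∀ v ∈ Subgroup.centralizer ({z} : Set G), v * v = 1 → v ≠ 1 →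
      v ∈ (S : Subgroup G) := by
    intro v hvX hvv hv1
    by_contra hvS
    have ho : orderOf (⟨v, hvX⟩ : Subgroup.centralizer ({z} : Set G)) = 2 := by
      rw [Subgroup.orderOf_mk]
      exact orderOf_eq_prime (by rw [sq, hvv]) hv1
    obtain ⟨y, hy1, hyo, hyinv⟩ := Cfsg.Agent.S0200.result
      (⟨v, hvX⟩ : Subgroup.centralizer ({z} : Set G)) ho
      (fun N hN hN2 ht => hvS (cz_normal_le S _ hSX N hN hN2 _ ht))
    refine cz_no_inverted h hz1 hzz hvv (y := (y : G)) ?_ ?_ ?_ ?_ ?_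
    · intro h1
      exact hy1 (Subtype.ext h1)
    · rwa [Subgroup.orderOf_coe]
    · exact congrArg Subtype.val hyinv
    · exact ((hXmem _).mp y.2).symm
    · exact ((hXmem _).mp hvX).symm
  -- involutions of the cyclic group
  have hinvC : ∀ v ∈ Subgroup.zpowers a, v * v = 1 → v = 1 ∨ v = z := by
    rintro v ⟨k, rfl⟩ hvv
    change a ^ k * a ^ k = 1 at hvv
    change a ^ k = 1 ∨ a ^ k = z
    rw [← zpow_add, ← orderOf_dvd_iff_zpow_eq_one, hoa, hN] at hvv
    have h1 : ((2 ^ (n - 2) : ℕ) : ℤ) ∣ k := by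
      obtain ⟨c, hc⟩ := hvv
      refine ⟨c, ?_⟩
      push_cast at hc ⊢
      linarith
    obtain ⟨j, rfl⟩ := h1
    rw [zpow_mul, zpow_natCast, ← hzdef]
    rcases Int.even_or_odd' j with ⟨c, rfl | rfl⟩
    · left
      rw [zpow_mul, zpow_two, hzz, one_zpow]
    · right
      rw [zpow_add, zpow_mul, zpow_two, hzz, one_zpow, one_mul, zpow_one]
  -- the key claim
  have key : ∀ y ∈ Subgroup.centralizer ({z} : Set G), Odd (orderOf y) → y = 1 := by
    intro y hyX hyo
    let I : Set G := {v | v ∈ Subgroup.centralizer ({z} : Set G) ∧ v * v = 1 ∧ v ≠ 1 ∧ v ≠ z}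
    have hIS : ∀ v ∈ I, v ∈ (S : Subgroup G) ∧ v ∉ Subgroup.zpowers a := by
      rintro v ⟨h1, h2, h3, h4⟩
      refine ⟨hinvS v h1 h2 h3, fun h5 => ?_⟩
      rcases hinvC v h5 h2 with h6 | h6
      · exact h3 h6
      · exact h4 h6
    have hIconj : ∀ x ∈ Subgroup.centralizer ({z} : Set G), ∀ v ∈ I, x * v * x⁻¹ ∈ I := by
      rintro x hx v ⟨h1, h2, h3, h4⟩
      refine ⟨Subgroup.mul_mem _ (Subgroup.mul_mem _ hx h1) (Subgroup.inv_mem _ hx), ?_, ?_, ?_⟩
      · calc x * v * x⁻¹ * (x * v * x⁻¹) = x * (v * v) * x⁻¹ := by group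
          _ = 1 := by rw [h2]; group
      · intro h5
        apply h3
        calc v = x⁻¹ * (x * v * x⁻¹) * x := by group
          _ = 1 := by rw [h5]; group
      · intro h5
        apply h4
        calc v = x⁻¹ * (x * v * x⁻¹) * x := by group
          _ = x⁻¹ * (z * x) := by rw [h5]; group
          _ = x⁻¹ * (x * z) := by rw [(hXmem x).mp hx]
          _ = z := by group
    let A0 : Subgroup G := Subgroup.closure {w | ∃ v ∈ I, ∃ v' ∈ I, w = v * v'}
    have hA0C : A0 ≤ Subgroup.zpowers a := by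
      rw [Subgroup.closure_le]
      rintro w ⟨v, hv, v', hv', rfl⟩
      obtain ⟨h1, h2⟩ := hIS v hv
      obtain ⟨h3, h4⟩ := hIS v' hv'
      exact (hmul v h1 v' h3).mpr (by tauto)
    have hA0conj : ∀ x ∈ Subgroup.centralizer ({z} : Set G), ∀ w ∈ A0, x * w * x⁻¹ ∈ A0 := by
      intro x hx w hw
      induction hw using Subgroup.closure_induction with
      | mem w hw =>
        obtain ⟨v, hv, v', hv', rfl⟩ := hw
        apply Subgroup.subset_closure
        exact ⟨_, hIconj x hx v hv, _, hIconj x hx v' hv', by group⟩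
      | one => simp
      | mul s t _ _ hs ht =>
        have e : x * (s * t) * x⁻¹ = (x * s * x⁻¹) * (x * t * x⁻¹) := by group
        rw [e]
        exact Subgroup.mul_mem _ hs ht
      | inv s _ hs =>
        have e : x * s⁻¹ * x⁻¹ = (x * s * x⁻¹)⁻¹ := by group
        rw [e]
        exact Subgroup.inv_mem _ hs
    have hnorm : y ∈ Subgroup.normalizer (A0 : Set G) := by
      rw [Subgroup.mem_normalizer_iff]
      intro w
      constructor
      · exact hA0conj y hyX w
      · intro hw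
        have := hA0conj y⁻¹ (Subgroup.inv_mem _ hyX) _ hw
        have e : y⁻¹ * (y * w * y⁻¹) * y⁻¹⁻¹ = w := by group
        rwa [e] at this
    have hcyc : IsCyclic A0 := Subgroup.isCyclic_of_le hA0C
    have hA0d : Nat.card A0 ∣ 2 ^ (n - 1) := by
      have := Subgroup.card_dvd_of_le hA0C
      rwa [Nat.card_zpowers, hoa] at this
    obtain ⟨e, -, he⟩ := (Nat.dvd_prime_pow Nat.prime_two).mp hA0d
    have hyc := cz_centralizes A0 hcyc e he y hnorm hyo
    have hbI : b ∈ I := ⟨hbX, hbb, hb1, hbz⟩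
    obtain ⟨w, hwdef⟩ : ∃ w, w = b * (y * b * y⁻¹) := ⟨_, rfl⟩
    have hwA : w ∈ A0 := by
      rw [hwdef]
      exact Subgroup.subset_closure ⟨b, hbI, _, hIconj y hyX b hbI, rfl⟩
    have hyw : w * y = y * w := (Subgroup.mem_centralizer_iff.mp hyc) w hwA
    have e1 : y * b * y⁻¹ = b * w := by
      rw [hwdef, ← mul_assoc, hbb, one_mul]
    have hywk : ∀ k : ℕ, y * w ^ k * y⁻¹ = w ^ k := by
      intro k
      have hc : Commute y (w ^ k) := (Commute.pow_right (show Commute y w from hyw.symm) k)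
      rw [hc.eq]
      group
    have claim : ∀ k : ℕ, y ^ k * b * (y ^ k)⁻¹ = b * w ^ k := by
      intro k
      induction k with
      | zero => simp
      | succ k ih =>
        calc y ^ (k + 1) * b * (y ^ (k + 1))⁻¹ = y * (y ^ k * b * (y ^ k)⁻¹) * y⁻¹ := by
              rw [pow_succ']; group
          _ = y * (b * w ^ k) * y⁻¹ := by rw [ih]
          _ = (y * b * y⁻¹) * (y * w ^ k * y⁻¹) := by group
          _ = b * w ^ (k + 1) := by rw [e1, hywk, pow_succ', mul_assoc]
    have hwm : w ^ orderOf y = 1 := by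
      have := claim (orderOf y)
      rw [pow_orderOf_eq_one, one_mul, inv_one, mul_one] at this
      exact (mul_eq_left.mp this.symm)
    have hw2 : w ^ (2 ^ (n - 1)) = 1 := by
      have h1 : orderOf w ∣ Nat.card (Subgroup.zpowers a) :=
        Subgroup.orderOf_dvd_natCard _ (hA0C hwA)
      rw [Nat.card_zpowers, hoa] at h1
      exact orderOf_dvd_iff_pow_eq_one.mp h1
    have hw1 : w = 1 := cz_eq_one_of_pow hwm hw2
      (Nat.Coprime.pow_right _ (Nat.coprime_two_right.mpr hyo))
    have hyb : y * b = b * y := by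
      rw [hw1, mul_one] at e1
      calc y * b = y * b * y⁻¹ * y := by group
        _ = b * y := by rw [e1]
    -- the four-group
    have hzV : z ∈ Subgroup.closure ({z, b} : Set G) := Subgroup.subset_closure (by simp)
    have hbV : b ∈ Subgroup.closure ({z, b} : Set G) := Subgroup.subset_closure (by simp)
    have hVnc := cz_not_cyclic (Subgroup.closure ({z, b} : Set G)) hzV hbV hz1 hb1 hbz.symm hzz hbb
    have hVle : Subgroup.closure ({z, b} : Set G) ≤ Subgroup.centralizer ({y} : Set G) := by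
      rw [Subgroup.closure_le]
      rintro x (rfl | hx)
      · exact Subgroup.mem_centralizer_singleton_iff.mpr ((hXmem y).mp hyX).symm
      · rw [Set.mem_singleton_iff] at hx
        subst hx
        exact Subgroup.mem_centralizer_singleton_iff.mpr hyb.symm
    have hyV := h.mem _ hVnc y (fun x hx => Subgroup.mem_centralizer_singleton_iff.mp (hVle hx))
    have hVS : Subgroup.closure ({z, b} : Set G) ≤ (S : Subgroup G) := by
      rw [Subgroup.closure_le]
      rintro x (rfl | hx)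
      · exact hCS hzC
      · rw [Set.mem_singleton_iff] at hx
        subst hx
        exact hb
    have h1 : orderOf y ∣ 2 ^ n := by
      rw [← hcard]
      exact Subgroup.orderOf_dvd_natCard _ (hVS hyV)
    have h2 : orderOf y = 1 := Nat.eq_one_of_dvd_coprimes
      (Nat.Coprime.pow_right n (Nat.coprime_two_right.mpr hyo)) dvd_rfl h1
    exact orderOf_eq_one_iff.mp h2
  have hX2 : IsPGroup 2 ↥(Subgroup.centralizer ({z} : Set G)) := by
    intro g
    obtain ⟨k, m, hm, hkm⟩ := Nat.exists_eq_two_pow_mul_odd (orderOf_pos (g : G)).ne'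
    refine ⟨k, ?_⟩
    apply Subtype.ext
    have h1 : orderOf ((g : G) ^ 2 ^ k) = m := by
      rw [orderOf_pow_of_dvd (by positivity) (by rw [hkm]; exact Dvd.intro _ rfl), hkm]
      exact Nat.mul_div_cancel_left m (by positivity)
    have h2 := key ((g : G) ^ 2 ^ k) (Subgroup.pow_mem _ g.2 _) (by rw [h1]; exact hm)
    simpa using h2
  exact S.is_maximal' hX2 hSX

end Cfsg.Agent.Lib.Helper73.SCN
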