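import Cfsg.Agent.Lib.Helper73.SCN.Defs

/-! Ladder SCN, rung DIH: dihedral groups with self-centralizing non-cyclic subgroups. -/

namespace Cfsg.Agent.Lib.Helper73.SCN

open DihedralGroup

/-- In `ZMod n`, there is at most one non-zero element killed by `2`. -/
theorem dih_two_torsion_unique (n : ℕ) [NeZero n] (x y : ZMod n) (hx : 2 * x = 0) (hx0 : x ≠ 0)
    (hy : 2 * y = 0) (hy0 : y ≠ 0) : x = y := by
  have key : ∀ z : ZMod n, 2 * z = 0 → z ≠ 0 → 2 * z.val = n := by
    intro z hz hz0
    have h1 : ((2 * z.val : ℕ) : ZMod n) = 0 := by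
      push_cast
      rw [ZMod.natCast_zmod_val]
      exact hz
    rw [ZMod.natCast_eq_zero_iff] at h1
    obtain ⟨c, hc⟩ := h1
    have h2 : z.val < n := ZMod.val_lt z
    have h3 : 0 < z.val := by
      rcases Nat.eq_zero_or_pos z.val with h | h
      · exact absurd ((ZMod.val_eq_zero z).1 h) hz0
      · exact h
    have hc1 : c = 1 := by
      have h4 : 0 < c := by
        rcases Nat.eq_zero_or_pos c with h | h
        · subst h; omega
        · exact h
      have h5 : c < 2 := by
        by_contra h
        have : 2 ≤ c := by omega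
        have : n * 2 ≤ n * c := Nat.mul_le_mul_left n this
        omega
      omega
    subst hc1
    omega
  have h1 := key x hx hx0
  have h2 := key y hy hy0
  apply ZMod.val_injective n
  omega

theorem dih_two_torsion_odd (n : ℕ) [NeZero n] (hn : Odd n) (x : ZMod n) (hx : 2 * x = 0) :
    x = 0 := by
  have h1 : ((2 * x.val : ℕ) : ZMod n) = 0 := by
    push_cast
    rw [ZMod.natCast_zmod_val]
    exact hx
  rw [ZMod.natCast_eq_zero_iff] at h1
  have h2 : n ∣ x.val := (Nat.Coprime.dvd_mul_left (Nat.coprime_two_right.2 hn)).1 h1
  have h3 : x.val < n := ZMod.val_lt x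
  have h4 : x.val = 0 := Nat.eq_zero_of_dvd_of_lt h2 h3
  exact (ZMod.val_eq_zero x).1 h4

/-- The subgroup of the dihedral group cut out by the `p`-torsion of `ZMod n`. -/
def dihTor (n p : ℕ) : Subgroup (DihedralGroup n) where
  carrier := {g | match g with
    | r i => (p : ZMod n) * i = 0
    | sr i => (p : ZMod n) * i = 0}
  mul_mem' := by
    rintro (a | a) (b | b) ha hb
    · show (p : ZMod n) * (a + b) = 0
      have ha' : (p : ZMod n) * a = 0 := ha
      have hb' : (p : ZMod n) * b = 0 := hb
      rw [mul_add, ha', hb', add_zero]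
    · show (p : ZMod n) * (b - a) = 0
      have ha' : (p : ZMod n) * a = 0 := ha
      have hb' : (p : ZMod n) * b = 0 := hb
      rw [mul_sub, ha', hb', sub_zero]
    · show (p : ZMod n) * (a + b) = 0
      have ha' : (p : ZMod n) * a = 0 := ha
      have hb' : (p : ZMod n) * b = 0 := hb
      rw [mul_add, ha', hb', add_zero]
    · show (p : ZMod n) * (b - a) = 0
      have ha' : (p : ZMod n) * a = 0 := ha
      have hb' : (p : ZMod n) * b = 0 := hb
      rw [mul_sub, ha', hb', sub_zero]
  one_mem' := by
    show (p : ZMod n) * 0 = 0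
    rw [mul_zero]
  inv_mem' := by
    rintro (a | a) ha
    · show (p : ZMod n) * (-a) = 0
      have ha' : (p : ZMod n) * a = 0 := ha
      rw [mul_neg, ha', neg_zero]
    · exact ha

theorem r_mem_dihTor (n p : ℕ) (i : ZMod n) : r i ∈ dihTor n p ↔ (p : ZMod n) * i = 0 := Iff.rfl

theorem sr_mem_dihTor (n p : ℕ) (i : ZMod n) : sr i ∈ dihTor n p ↔ (p : ZMod n) * i = 0 := Iff.rfl

theorem sc_dihedral_iff (n : ℕ) (hn : 3 ≤ n) :
    SC (DihedralGroup n) ↔ (Odd n ∨ ∃ k : ℕ, n = 2 ^ k) := by
  have : NeZero n := ⟨by omega⟩
  constructor
  · intro h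
    by_contra hcon
    push Not at hcon
    obtain ⟨hodd, hpow⟩ := hcon
    have heven : Even n := Nat.not_odd_iff_even.1 hodd
    obtain ⟨m, hm⟩ := heven
    -- an odd prime divisor
    have hex : ∃ p : ℕ, p.Prime ∧ p ∣ n ∧ p ≠ 2 := by
      by_contra hno
      push Not at hno
      apply hpow (n.primeFactorsList.length)
      exact Nat.eq_prime_pow_of_unique_prime_dvd (by omega) (fun {d} hd hdn => hno d hd hdn)
    obtain ⟨p, hp, ⟨m', hm'⟩, hp2⟩ := hex
    have hm0 : 0 < m := by omega
    have hm'0 : 0 < m' := by
      rcases Nat.eq_zero_or_pos m' with h0 | h0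
      · subst h0; omega
      · exact h0
    have hnc : ¬ IsCyclic ↥(dihTor n p) := by
      intro hc
      have h1 : (r (m' : ZMod n)) ∈ dihTor n p := by
        rw [r_mem_dihTor]
        have : ((p * m' : ℕ) : ZMod n) = 0 := by
          rw [← hm']; exact ZMod.natCast_self n
        push_cast at this
        exact this
      have h2 : (sr (0 : ZMod n)) ∈ dihTor n p := by
        rw [sr_mem_dihTor, mul_zero]
      have hcomm := hc.isMulCommutative.is_comm.comm
        (⟨r (m' : ZMod n), h1⟩ : ↥(dihTor n p)) ⟨sr 0, h2⟩
      have h3 : r (m' : ZMod n) * sr 0 = sr 0 * r (m' : ZMod n) := congrArg Subtype.val hcomm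
      rw [r_mul_sr, sr_mul_r] at h3
      have h4 : (0 : ZMod n) - m' = 0 + m' := by
        injection h3
      have h5 : ((2 * m' : ℕ) : ZMod n) = 0 := by
        push_cast
        linear_combination -h4
      rw [ZMod.natCast_eq_zero_iff, hm'] at h5
      have h6 : p ∣ 2 := by
        have : p * m' ∣ 2 * m' := h5
        exact Nat.dvd_of_mul_dvd_mul_right hm'0 this
      exact hp2 ((Nat.prime_dvd_prime_iff_eq hp Nat.prime_two).1 h6)
    have hmem : r (m : ZMod n) ∈ dihTor n p := by
      apply h.mem _ hnc
      have hmm : (m : ZMod n) + m = 0 := by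
        have : ((m + m : ℕ) : ZMod n) = 0 := by
          rw [← hm]; exact ZMod.natCast_self n
        push_cast at this
        exact this
      rintro (a | a) _
      · rw [r_mul_r, r_mul_r, add_comm]
      · rw [sr_mul_r, r_mul_sr]
        congr 1
        linear_combination hmm
    rw [r_mem_dihTor] at hmem
    have h5 : ((p * m : ℕ) : ZMod n) = 0 := by
      push_cast
      exact hmem
    rw [ZMod.natCast_eq_zero_iff, hm] at h5
    have h6 : 2 ∣ p := by
      have : 2 * m ∣ p * m := by
        have e : m + m = 2 * m := by ring
        rw [← e]; exact h5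
      exact Nat.dvd_of_mul_dvd_mul_right hm0 this
    exact hp2 ((Nat.prime_dvd_prime_iff_eq Nat.prime_two hp).1 h6).symm
  · intro hcase H hH c hc
    rw [Subgroup.mem_centralizer_iff] at hc
    -- a reflection in H
    have h1 : ∃ i, sr i ∈ H := by
      by_contra hno
      push Not at hno
      apply hH
      have hle : H ≤ Subgroup.zpowers (r (1 : ZMod n)) := by
        rintro (a | a) ha
        · rw [Subgroup.mem_zpowers_iff]
          refine ⟨(a.val : ℤ), ?_⟩
          rw [r_one_zpow]
          congr 1
          simp
        · exact absurd ha (hno a)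
      exact Subgroup.isCyclic_of_le hle
    obtain ⟨i, hi⟩ := h1
    -- a non-trivial rotation in H
    have h2 : ∃ m, m ≠ 0 ∧ r m ∈ H := by
      by_contra hno
      push Not at hno
      apply hH
      have hle : H ≤ Subgroup.zpowers (sr i) := by
        rintro (a | a) ha
        · have : a = 0 := by
            by_contra h0
            exact hno a h0 ha
          subst this
          rw [r_zero]
          exact one_mem _
        · have h3 : r (a - i) ∈ H := by
            rw [← sr_mul_sr]
            exact H.mul_mem hi ha
          have : a - i = 0 := by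
            by_contra h0
            exact hno _ h0 h3
          have hai : a = i := sub_eq_zero.1 this
          rw [hai]
          exact Subgroup.mem_zpowers _
      exact Subgroup.isCyclic_of_le hle
    obtain ⟨m, hm0, hm⟩ := h2
    rcases c with j | j
    · -- a rotation
      have h3 := hc _ hi
      rw [sr_mul_r, r_mul_sr] at h3
      have h4 : i + j = i - j := by injection h3
      have h5 : 2 * j = 0 := by linear_combination h4
      by_cases hj0 : j = 0
      · subst hj0
        rw [r_zero]; exact one_mem _
      rcases hcase with hodd | ⟨k, hk⟩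
      · exact absurd (dih_two_torsion_odd n hodd j h5) hj0
      · have h6 : addOrderOf m ∣ 2 ^ k := by
          rw [← hk]
          have := addOrderOf_dvd_card (x := m)
          rwa [ZMod.card] at this
        obtain ⟨f, _, hf⟩ := (Nat.dvd_prime_pow Nat.prime_two).1 h6
        have hf0 : f ≠ 0 := by
          rintro rfl
          rw [pow_zero, AddMonoid.addOrderOf_eq_one_iff] at hf
          exact hm0 hf
        obtain ⟨f', rfl⟩ := Nat.exists_eq_succ_of_ne_zero hf0
        have h7 : 2 * (m * ((2 ^ f' : ℕ) : ZMod n)) = 0 := by
          have := addOrderOf_nsmul_eq_zero m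
          rw [hf, nsmul_eq_mul] at this
          rw [← this, Nat.succ_eq_add_one]
          push_cast
          ring
        have h8 : m * ((2 ^ f' : ℕ) : ZMod n) ≠ 0 := by
          intro h0
          have : addOrderOf m ∣ 2 ^ f' := by
            apply addOrderOf_dvd_of_nsmul_eq_zero
            rw [nsmul_eq_mul, mul_comm]
            exact h0
          rw [hf] at this
          have := Nat.le_of_dvd (by positivity) this
          rw [Nat.succ_eq_add_one, pow_succ] at this
          have : 0 < 2 ^ f' := by positivity
          omega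
        have h9 := dih_two_torsion_unique n _ _ h5 hj0 h7 h8
        rw [h9, ← r_pow]
        exact H.pow_mem hm _
    · -- a reflection
      have h3 := hc _ hm
      rw [r_mul_sr, sr_mul_r] at h3
      have h4 : j - m = j + m := by injection h3
      have h5 : 2 * m = 0 := by linear_combination -h4
      have h6 := hc _ hi
      rw [sr_mul_sr, sr_mul_sr] at h6
      have h7 : j - i = i - j := by injection h6
      have h8 : 2 * (j - i) = 0 := by linear_combination h7
      by_cases hji : j - i = 0
      · have : j = i := sub_eq_zero.1 hji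
        rw [this]; exact hi
      · have h9 := dih_two_torsion_unique n _ _ h8 hji h5 hm0
        have : j = i + m := by rw [← h9]; ring
        rw [this, ← sr_mul_r]
        exact H.mul_mem hi hm

end Cfsg.Agent.Lib.Helper73.SCN
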