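import Mathlib
import Cfsg.Agent.Lib.Helper73.SCN.Defs

set_option autoImplicit false

namespace Cfsg.Agent.Lib.Helper73.SCN

theorem nt_geo_parity (x : ℤ) (hx : Odd x) (n : ℕ) :
    (∑ i ∈ Finset.range n, x ^ i) % 2 = (n : ℤ) % 2 := by
  induction n with
  | zero => simp
  | succ n ih =>
    rw [Finset.sum_range_succ]
    have h1 : x ^ n % 2 = 1 := Int.odd_iff.mp hx.pow
    push_cast
    omega

theorem nt_odd_dvd_two_pow (s : ℕ) (hs : s % 2 = 1) (k : ℕ) (h : s ∣ 2 ^ k) : s = 1 := by
  obtain ⟨j, -, hj⟩ := (Nat.dvd_prime_pow Nat.prime_two).mp h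
  rcases j with _ | j
  · simpa using hj
  · exfalso
    have : s % 2 = 0 := by rw [hj, pow_succ]; omega
    omega

theorem nt_odd_case (x : ℤ) (hx : Odd x) (a : ℕ) (ha : Odd a) (k : ℕ)
    (h : (x ^ a - 1).natAbs = 2 ^ k) : (x ^ a - 1).natAbs = (x - 1).natAbs := by
  have h1 := geom_sum_mul x a
  have h2 := nt_geo_parity x hx a
  have h3 : ((a : ℤ)) % 2 = 1 := by
    have := Nat.odd_iff.mp ha
    omega
  rw [h3] at h2
  have h4 : (∑ i ∈ Finset.range a, x ^ i).natAbs * (x - 1).natAbs = (x ^ a - 1).natAbs := by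
    rw [← Int.natAbs_mul, h1]
  have h5 : (∑ i ∈ Finset.range a, x ^ i).natAbs = 1 := by
    apply nt_odd_dvd_two_pow _ _ k
    · rw [← h, ← h4]
      exact Dvd.intro _ rfl
    · omega
  rw [← h4, h5, one_mul]

theorem prime_or_nine (q k : ℕ) (hq : IsPrimePow q) (h : q = 2 ^ k + 1 ∨ q = 2 ^ k - 1) :
    q.Prime ∨ q = 9 := by
  obtain ⟨p, a, hp, ha, rfl⟩ := (isPrimePow_nat_iff q).mp hq
  by_cases ha1 : a = 1
  · left
    rw [ha1, pow_one]
    exact hp
  have ha2 : 2 ≤ a := by omega
  have hp2 : 2 ≤ p := hp.two_le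
  have hbig : p < p ^ a := by
    calc p = p ^ 1 := (pow_one p).symm
      _ < p ^ a := Nat.pow_lt_pow_right hp2 (by omega)
  rcases hp.eq_two_or_odd' with rfl | hpo
  · -- `p = 2`
    exfalso
    have he : 2 ^ a % 2 = 0 := by
      obtain ⟨b, rfl⟩ : ∃ b, a = b + 1 := ⟨a - 1, by omega⟩
      rw [pow_succ]; omega
    rcases k with _ | k
    · rcases h with h | h
      · simp at h
        omega
      · simp at h
    · have hk : 2 ^ (k + 1) % 2 = 0 := by rw [pow_succ]; omega
      have hk1 : 1 ≤ 2 ^ (k + 1) := Nat.one_le_two_pow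
      rcases h with h | h <;> omega
  · rcases Nat.even_or_odd a with hae | hao
    · -- `a` even
      obtain ⟨b, rfl⟩ := hae
      have hb : 1 ≤ b := by omega
      obtain ⟨y, hy⟩ : ∃ y, y = p ^ b := ⟨_, rfl⟩
      have hyy : p ^ (b + b) = y * y := by rw [pow_add, hy]
      have hyo : y % 2 = 1 := by rw [hy]; exact Nat.odd_iff.mp hpo.pow
      have hy3 : 3 ≤ y := by
        have h1 : p ≤ y := by
          rw [hy]
          calc p = p ^ 1 := (pow_one p).symm
            _ ≤ p ^ b := Nat.pow_le_pow_right (by omega) hb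
        have h2 : p % 2 = 1 := Nat.odd_iff.mp hpo
        omega
      rw [hyy] at h ⊢
      rcases h with h | h
      · right
        have h1 : (y - 1) * (y + 1) = 2 ^ k := by
          obtain ⟨t, rfl⟩ : ∃ t, y = t + 1 := ⟨y - 1, by omega⟩
          simp only [Nat.add_sub_cancel]
          nlinarith
        obtain ⟨i, -, hi⟩ := (Nat.dvd_prime_pow Nat.prime_two).mp (Dvd.intro _ h1)
        obtain ⟨j, -, hj⟩ := (Nat.dvd_prime_pow Nat.prime_two).mp (Dvd.intro_left _ h1)
        have hij : 2 ^ j = 2 ^ i + 2 := by omega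
        rcases i with _ | _ | i
        · simp at hi
          omega
        · have : y = 3 := by simp at hi; omega
          rw [this]
        · exfalso
          have h4 : 2 ^ (i + 1 + 1) % 4 = 0 := by rw [pow_succ, pow_succ]; omega
          rcases j with _ | _ | j
          · simp at hij
          · simp at hij
          · have h5 : 2 ^ (j + 1 + 1) % 4 = 0 := by rw [pow_succ, pow_succ]; omega
            omega
      · exfalso
        have h1 : y * y % 4 = 1 := by
          obtain ⟨t, rfl⟩ : ∃ t, y = 2 * t + 1 := ⟨y / 2, by omega⟩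
          have : (2 * t + 1) * (2 * t + 1) = 4 * (t * t + t) + 1 := by ring
          rw [this]; omega
        have h9 : 9 ≤ y * y := by nlinarith
        rcases k with _ | _ | k
        · simp at h; omega
        · simp at h; omega
        · have h5 : 2 ^ (k + 1 + 1) % 4 = 0 := by rw [pow_succ, pow_succ]; omega
          omega
    · -- `a` odd
      exfalso
      rcases h with h | h
      · have hx : Odd (p : ℤ) := by exact_mod_cast hpo
        have h1 : ((p : ℤ) ^ a - 1).natAbs = 2 ^ k := by
          have : ((p : ℤ) ^ a - 1) = ((2 ^ k : ℕ) : ℤ) := by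
            have := congrArg (fun n : ℕ => (n : ℤ)) h
            push_cast at this ⊢
            linarith
          rw [this, Int.natAbs_natCast]
        have h2 := nt_odd_case (p : ℤ) hx a hao k h1
        rw [h1] at h2
        have h3 : ((p : ℤ) - 1).natAbs = p - 1 := by omega
        rw [h3] at h2
        omega
      · have hx : Odd (-(p : ℤ)) := by
          rw [odd_neg]
          exact_mod_cast hpo
        have hk1 : 1 ≤ 2 ^ k := Nat.one_le_two_pow
        have h0 : (-(p : ℤ)) ^ a - 1 = -((2 ^ k : ℕ) : ℤ) := by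
          rw [hao.neg_pow]
          have h' : p ^ a + 1 = 2 ^ k := by omega
          have := congrArg (fun n : ℕ => (n : ℤ)) h'
          push_cast at this ⊢
          linarith
        have h1 : ((-(p : ℤ)) ^ a - 1).natAbs = 2 ^ k := by
          rw [h0, Int.natAbs_neg, Int.natAbs_natCast]
        have h2 := nt_odd_case (-(p : ℤ)) hx a hao k h1
        rw [h1] at h2
        have h3 : (-(p : ℤ) - 1).natAbs = p + 1 := by omega
        rw [h3] at h2
        omega

end Cfsg.Agent.Lib.Helper73.SCN
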