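import Mathlib
import Cfsg.Agent.Lib.Helper73.SCN.Defs
import Cfsg.Agent.Lib.Helper77.Frobenius
import Cfsg.Agent.S3917
import Cfsg.Agent.S0640

set_option autoImplicit false

namespace Cfsg.Agent.Lib.Helper73.SCN

theorem odd_rank {G : Type*} [Group G] [Finite G] (h : SC G) {p : ℕ} (hpp : p.Prime)
    (Q : Subgroup G) (hQ : IsPGroup p Q) : Cfsg.PRankLE p 2 Q := by
  intro A hA hexp
  have : Fact p.Prime := ⟨hpp⟩
  let _ : CommGroup A :=
    { (inferInstance : Group A) with mul_comm := fun a b => hA.is_comm.comm a b }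
  have hSC : SC A := (h.subgroup Q).subgroup A
  rcases Cfsg.Agent.S3917.result (G := A) hSC with hcyc | ⟨p', hp', hcard, -⟩
  · obtain ⟨a, ha⟩ := hcyc.exists_generator
    have h1 : Nat.card A = orderOf a := (orderOf_eq_card_of_forall_mem_zpowers ha).symm
    have h2 : a ^ p = 1 := Subtype.ext (by simpa using hexp a a.2)
    have h3 : orderOf a ∣ p := orderOf_dvd_of_pow_eq_one h2
    rw [h1]
    calc orderOf a ≤ p := Nat.le_of_dvd hpp.pos h3
      _ ≤ p ^ 2 := by nlinarith [hpp.two_le]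
  · have hAp : IsPGroup p A := hQ.to_subgroup A
    obtain ⟨n, hn⟩ := hAp.exists_card_eq
    have h1 : p' ∣ p ^ n := by
      rw [← hn, hcard]
      exact dvd_pow_self _ two_ne_zero
    have h2 : p' = p := (Nat.prime_dvd_prime_iff_eq hp' hpp).mp (hp'.dvd_of_dvd_pow h1)
    rw [hcard, h2]

theorem even_card {G : Type*} [Group G] [Finite G] [IsSimpleGroup G]
    (hna : ¬ IsMulCommutative G) (h : SC G) : 2 ∣ Nat.card G := by
  by_contra h2
  have hc1 : Nat.card G ≠ 1 := by
    have := Finite.one_lt_card (α := G)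
    omega
  obtain ⟨p, hp⟩ : ∃ p, p = (Nat.card G).minFac := ⟨_, rfl⟩
  have hpp : p.Prime := hp ▸ Nat.minFac_prime hc1
  have hpd : p ∣ Nat.card G := hp ▸ Nat.minFac_dvd _
  have hp2 : p ≠ 2 := by
    rintro h'
    exact h2 (h' ▸ hpd)
  have : Fact p.Prime := ⟨hpp⟩
  have hF : Cfsg.Agent.Lib.Helper77.FrobCond p G := by
    intro Q hQ g hg hgo
    have hα1 : Q.normalizerMonoidHom ⟨g, hg⟩ = 1 := by
      by_contra hne
      have ho : orderOf (Q.normalizerMonoidHom ⟨g, hg⟩) ≠ 1 :=
        fun h' => hne (orderOf_eq_one_iff.mp h')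
      obtain ⟨q, hq, hqd⟩ := Nat.exists_prime_and_dvd ho
      have h1 : orderOf (Q.normalizerMonoidHom ⟨g, hg⟩) ∣ orderOf g := by
        have := orderOf_map_dvd Q.normalizerMonoidHom
          (⟨g, hg⟩ : Subgroup.normalizer (Q : Set G))
        rwa [Subgroup.orderOf_mk] at this
      have hqg : q ∣ orderOf g := hqd.trans h1
      have hqG : q ∣ Nat.card G := hqg.trans (orderOf_dvd_natCard g)
      have hpq : p ≤ q := hp ▸ Nat.minFac_le_of_dvd hq.two_le hqG
      have hqp : q ≠ p := by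
        rintro rfl
        exact (Nat.Prime.coprime_iff_not_dvd hpp).mp hgo.symm hqg
      have := (Cfsg.Agent.S0640.result hp2 hQ (odd_rank h hpp Q hQ) q hq hqp
        (hqd.trans (orderOf_dvd_natCard _))).2
      omega
    have h3 : (⟨g, hg⟩ : Subgroup.normalizer (Q : Set G)) ∈ Q.normalizerMonoidHom.ker := hα1
    rw [Subgroup.normalizerMonoidHom_ker] at h3
    exact Subgroup.mem_subgroupOf.mp h3
  obtain ⟨K, hKn, hKc, k, hk⟩ := Cfsg.Agent.Lib.Helper77.npc_iff_frobCond.mpr hF
  rcases hKn.eq_bot_or_eq_top with rfl | rfl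
  · have hG : IsPGroup p G := IsPGroup.of_card (n := k) (by rw [← hk, Subgroup.index_bot])
    have hcn := hG.center_nontrivial
    rcases (inferInstance : (Subgroup.center G).Normal).eq_bot_or_eq_top with hb | ht
    · rw [hb] at hcn
      exact not_subsingleton (↥(⊥ : Subgroup G)) inferInstance
    · apply hna
      refine ⟨⟨fun a b => ?_⟩⟩
      have hb : b ∈ Subgroup.center G := by rw [ht]; trivial
      exact Subgroup.mem_center_iff.mp hb a
  · rw [Subgroup.card_top] at hKc
    exact (Nat.Prime.coprime_iff_not_dvd hpp).mp hKc.symm hpd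

end Cfsg.Agent.Lib.Helper73.SCN
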