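import Cfsg.Agent.Lib.Helper73.SCN.DIH
import Cfsg.Agent.Lib.Helper7.PSL2Tor
import Cfsg.Agent.Lib.Helper47.SL2Class

/-! Ladder SCN, rung PSLB: `PSL₂(q)`, `q = 4, 9` or a prime `2^k ± 1`, has property `SC`. -/

namespace Cfsg.Agent.Lib.Helper73.SCN

open Matrix MatrixGroups Subgroup Cfsg.Agent.Lib.Helper46 Cfsg.Agent.Lib.Helper7
  Cfsg.Agent.Lib.Helper7.PMax

/-- a non-cyclic subgroup of a group of order `p^2` is everything -/
theorem pslb_top_of_sq {M : Type*} [Group M] [Finite M] (p : ℕ) (hp : p.Prime)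
    (hM : Nat.card M = p ^ 2) (H : Subgroup M) (hH : ¬ IsCyclic ↥H) : H = ⊤ := by
  have h1 : Nat.card H ∣ p ^ 2 := hM ▸ Subgroup.card_subgroup_dvd_card H
  obtain ⟨j, hj, hc⟩ := (Nat.dvd_prime_pow hp).mp h1
  have : j = 0 ∨ j = 1 ∨ j = 2 := by omega
  rcases this with rfl | rfl | rfl
  · exfalso; apply hH
    rw [pow_zero] at hc
    have := Subgroup.card_eq_one.mp hc
    rw [this]; infer_instance
  · exfalso; apply hH
    rw [pow_one] at hc
    haveI : Fact p.Prime := ⟨hp⟩
    exact isCyclic_of_prime_card hc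
  · exact Subgroup.eq_top_of_card_eq H (by rw [hc, hM])

theorem pslb_sc_of_sq {M : Type*} [Group M] [Finite M] (p : ℕ) (hp : p.Prime)
    (hM : Nat.card M = p ^ 2) : SC M := by
  intro H hH x _
  rw [pslb_top_of_sq p hp hM H hH]; trivial

theorem pslb_sc_of_cyclic {M : Type*} [Group M] (hM : IsCyclic M) : SC M := by
  intro H hH
  exact absurd (inferInstance : IsCyclic ↥H) hH

/-- reduction to the centralizer of `c` -/
theorem pslb_reduce {P : Type*} [Group P]
    (h : ∀ c : P, c ≠ 1 → SC ↥(centralizer ({c} : Set P))) : SC P := by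
  intro H hH c hc
  by_cases hc1 : c = 1
  · rw [hc1]; exact H.one_mem
  set M := centralizer ({c} : Set P) with hM
  have hHM : H ≤ M := by
    intro x hx
    rw [hM, mem_centralizer_singleton_iff]
    exact (mem_centralizer_iff.mp hc x hx)
  have hcM : c ∈ M := by rw [hM, mem_centralizer_singleton_iff]
  have h1 : ¬ IsCyclic ↥(H.subgroupOf M) := by
    intro hcy
    apply hH
    have e := subgroupOfEquivOfLe hHM
    exact isCyclic_of_surjective e e.surjective
  have h2 := (h c hc1).mem (H.subgroupOf M) h1 ⟨c, hcM⟩ (by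
    intro x hx
    apply Subtype.ext
    exact (mem_centralizer_iff.mp hc x.1 (mem_subgroupOf.mp hx)))
  exact mem_subgroupOf.mp h2

theorem pslb_num (q k z : ℕ) (hk : 3 ≤ k) (hq2 : 2 ≤ q)
    (hq : (z = 1 ∧ (q = 4 ∨ q = 2)) ∨ (z = 2 ∧ (q = 9 ∨ ∃ j : ℕ, q = 2 ^ j + 1 ∨ q = 2 ^ j - 1)))
    (hd : z * k ∣ q + 1 ∨ z * k ∣ q - 1) : Odd k ∨ ∃ j : ℕ, k = 2 ^ j := by
  have hoddd : ∀ m : ℕ, Odd m → k ∣ m → Odd k := fun m hm hkm => Odd.of_dvd_nat hm hkm
  have hpow : ∀ i : ℕ, k ∣ 2 ^ i → ∃ j : ℕ, k = 2 ^ j := by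
    intro i hi
    obtain ⟨j, -, hj⟩ := (Nat.dvd_prime_pow Nat.prime_two).mp hi
    exact ⟨j, hj⟩
  rcases hq with ⟨rfl, hq⟩ | ⟨rfl, hq⟩
  · rw [one_mul] at hd
    rcases hq with rfl | rfl
    · rcases hd with hd | hd
      · exact Or.inl (hoddd 5 (by decide) hd)
      · exact Or.inl (hoddd 3 (by decide) hd)
    · rcases hd with hd | hd
      · exact Or.inl (hoddd 3 (by decide) hd)
      · exact Or.inl (hoddd 1 (by decide) hd)
  · rcases hq with rfl | ⟨j, hj⟩
    · rcases hd with hd | hd
      · have : k ∣ 5 := Nat.dvd_of_mul_dvd_mul_left (by norm_num : 0 < 2) (by simpa using hd)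
        exact Or.inl (hoddd 5 (by decide) this)
      · have : k ∣ 2 ^ 2 := Nat.dvd_of_mul_dvd_mul_left (by norm_num : 0 < 2) (by simpa using hd)
        exact Or.inr (hpow 2 this)
    · -- q = 2^j ± 1
      rcases j with _ | _ | j
      · -- j = 0 : q = 2 or 0
        exfalso
        rcases hj with rfl | rfl
        · rcases hd with hd | hd
          · have := Nat.le_of_dvd (by norm_num) hd; omega
          · have := Nat.le_of_dvd (by norm_num) hd; omega
        · simp at hq2
      · -- j = 1 : q = 3 or 1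
        exfalso
        rcases hj with rfl | rfl
        · rcases hd with hd | hd
          · have := Nat.le_of_dvd (by norm_num) hd; omega
          · have := Nat.le_of_dvd (by norm_num) hd; omega
        · simp at hq2
      · have hp : 2 ^ (j + 1 + 1) = 2 * 2 ^ (j + 1) := by rw [pow_succ, mul_comm]
        have hp2 : 2 ^ (j + 1) = 2 * 2 ^ j := by rw [pow_succ, mul_comm]
        have hpos : 0 < 2 ^ j := by positivity
        rcases hj with rfl | rfl
        · rcases hd with hd | hd
          · have h1 : 2 ^ (j + 1 + 1) + 1 + 1 = 2 * (2 ^ (j + 1) + 1) := by omega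
            rw [h1] at hd
            have := Nat.dvd_of_mul_dvd_mul_left (by norm_num : 0 < 2) hd
            exact Or.inl (hoddd _ ⟨2 ^ j, by omega⟩ this)
          · have h1 : 2 ^ (j + 1 + 1) + 1 - 1 = 2 * 2 ^ (j + 1) := by omega
            rw [h1] at hd
            exact Or.inr (hpow _ (Nat.dvd_of_mul_dvd_mul_left (by norm_num : 0 < 2) hd))
        · rcases hd with hd | hd
          · have h1 : 2 ^ (j + 1 + 1) - 1 + 1 = 2 * 2 ^ (j + 1) := by omega
            rw [h1] at hd
            exact Or.inr (hpow _ (Nat.dvd_of_mul_dvd_mul_left (by norm_num : 0 < 2) hd))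
          · have h1 : 2 ^ (j + 1 + 1) - 1 - 1 = 2 * (2 ^ (j + 1) - 1) := by omega
            rw [h1] at hd
            have := Nat.dvd_of_mul_dvd_mul_left (by norm_num : 0 < 2) hd
            exact Or.inl (hoddd _ ⟨2 ^ j - 1, by omega⟩ this)

theorem sc_psl (F : Type) [Field F] [Fintype F]
    (h : Fintype.card F = 4 ∨ Fintype.card F = 9 ∨ ((Fintype.card F).Prime ∧
      ∃ k : ℕ, Fintype.card F = 2 ^ k + 1 ∨ Fintype.card F = 2 ^ k - 1)) :
    SC (Matrix.ProjectiveSpecialLinearGroup (Fin 2) F) := by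
  apply pslb_reduce
  intro c hc1
  obtain ⟨g, rfl⟩ := QuotientGroup.mk_surjective c
  have hgc : g ∉ center (SpecialLinearGroup (Fin 2) F) := by
    intro hg
    apply hc1
    exact (QuotientGroup.eq_one_iff g).mpr hg
  set M := centralizer ({(QuotientGroup.mk g : ProjectiveSpecialLinearGroup (Fin 2) F)} :
    Set (ProjectiveSpecialLinearGroup (Fin 2) F)) with hM
  have hpre : pre M = Cfsg.Agent.Lib.Helper47.Cstar g := rfl
  -- parity of q versus characteristic
  have hz : (zc F = 1 ∧ (2 : F) = 0) ∨ (zc F = 2 ∧ (2 : F) ≠ 0) := by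
    by_cases h2 : (2 : F) = 0
    · exact Or.inl ⟨zc_of_two_eq h2, h2⟩
    · exact Or.inr ⟨zc_of_two_ne h2, h2⟩
  have hpar : (2 : F) = 0 ↔ Fintype.card F % 2 = 0 := by
    rw [← FiniteField.even_card_iff_char_two]
    constructor
    · intro h2
      haveI : CharP F 2 := CharTwo.of_one_ne_zero_of_two_eq_zero one_ne_zero h2
      exact ringChar.eq F 2
    · intro h2
      have := ringChar.Nat.cast_ringChar (R := F)
      rw [h2] at this
      exact_mod_cast this
  have hq2 : 2 ≤ Fintype.card F := Fintype.one_lt_card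
  have hMpos : 0 < Nat.card M := Nat.card_pos
  by_cases hs : tr g ^ 2 = 4
  · -- unipotent type
    have hC : Cfsg.Agent.Lib.Helper47.Cstar g = centralizer ({g} : Set (SpecialLinearGroup (Fin 2) F)) := by
      apply Cfsg.Agent.Lib.Helper47.Cstar_eq
      by_cases h2 : (2 : F) = 0
      · exact Or.inl h2
      · right
        intro h0
        rw [h0] at hs
        apply h2
        have : (2 : F) * 2 = 0 := by linear_combination -hs
        exact (mul_self_eq_zero.mp this)
    have hcard : Nat.card (centralizer ({g} : Set (SpecialLinearGroup (Fin 2) F)))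
        = Fintype.card F * Nat.card {s : F // s ^ 2 = 1} := by
      obtain ⟨⟨a0, ha0⟩, hall⟩ := Cfsg.Agent.Lib.Helper47.root_of_sq_eq_four (tr g) hs
      rcases Cfsg.Agent.Lib.Helper47.card_centralizer_cases g hgc with ⟨h1, -⟩ | ⟨⟨a, ha, ha1⟩, -⟩ | ⟨-, h2⟩
      · exact absurd ha0 (h1 a0)
      · exact absurd (hall a ha) ha1
      · exact h2
    have hcM : Nat.card M = Fintype.card F := by
      have h1 := card_pre M
      rw [hpre, hC, hcard] at h1
      rcases hz with ⟨hz1, h2⟩ | ⟨hz1, h2⟩
      · rw [hz1, Cfsg.Agent.Lib.Helper47.card_sq_eq_one_of_two_eq_zero h2] at h1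
        omega
      · rw [hz1, Cfsg.Agent.Lib.Helper47.card_sq_eq_one_of_two_ne_zero h2] at h1
        omega
    rcases h with h4 | h9 | ⟨hp, -⟩
    · exact pslb_sc_of_sq 2 Nat.prime_two (by rw [hcM, h4]; norm_num)
    · exact pslb_sc_of_sq 3 Nat.prime_three (by rw [hcM, h9]; norm_num)
    · haveI : Fact (Fintype.card F).Prime := ⟨hp⟩
      exact pslb_sc_of_cyclic (isCyclic_of_prime_card hcM)
  · -- semisimple type
    have hT : Tor (pre M) := by
      refine ⟨g, ?_, hs, ?_⟩
      · rw [hpre]; exact (Cfsg.Agent.Lib.Helper47.mem_Cstar g g).mpr (Or.inl rfl)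
      · intro x hx
        rw [hpre] at hx
        rcases (Cfsg.Agent.Lib.Helper47.mem_Cstar g x).mp hx with h1 | h1
        · exact Or.inl h1
        · by_cases h2 : (2 : F) = 0
          · left
            rw [Cfsg.Agent.Lib.Helper47.negOne_eq_one h2, one_mul] at h1
            exact h1
          · right
            have h3 : x * g * x⁻¹ = negOne * g := by rw [h1]; group
            have h4 := tr_conj x g
            rw [h3, tr_negOne_mul] at h4
            have h5 : tr g = 0 := by
              have : (2 : F) * tr g = 0 := by linear_combination -h4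
              exact (mul_eq_zero.mp this).resolve_left h2
            rw [h3]
            symm
            apply inv_eq_of_mul_eq_one_right
            rw [← mul_assoc, Cfsg.Agent.Lib.Helper47.negOne_comm, mul_assoc, sq_of_tr_zero g h5,
              Cfsg.Agent.Lib.Helper47.negOne_mul_negOne]
    obtain ⟨k, hk, hstr⟩ := tor_struct M hT
    rcases hstr with ⟨hcyc, -⟩ | ⟨hcard, ⟨e⟩⟩
    · exact pslb_sc_of_cyclic hcyc
    · have hk3 : k = 0 ∨ k = 1 ∨ k = 2 ∨ 3 ≤ k := by omega
      rcases hk3 with rfl | rfl | rfl | hk3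
      · omega
      · haveI : Fact (Nat.Prime 2) := ⟨Nat.prime_two⟩
        exact pslb_sc_of_cyclic (isCyclic_of_prime_card (p := 2) (by rw [hcard]))
      · exact pslb_sc_of_sq 2 Nat.prime_two (by rw [hcard]; norm_num)
      · have hnum := pslb_num (Fintype.card F) k (zc F) hk3 hq2 (by
          rcases hz with ⟨hz1, h2⟩ | ⟨hz1, h2⟩
          · left
            refine ⟨hz1, ?_⟩
            have hev := hpar.mp h2
            rcases h with h4 | h9 | ⟨hp, -⟩
            · exact Or.inl h4
            · omega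
            · right
              exact (Nat.Prime.eq_one_or_self_of_dvd hp 2 (Nat.dvd_of_mod_eq_zero hev)).resolve_left
                (by norm_num) |>.symm
          · right
            refine ⟨hz1, ?_⟩
            have hodd : ¬ Fintype.card F % 2 = 0 := fun hh => h2 (hpar.mpr hh)
            rcases h with h4 | h9 | ⟨-, hj⟩
            · omega
            · exact Or.inl h9
            · exact Or.inr hj) hk
        exact SC.of_equiv e.symm ((sc_dihedral_iff k hk3).mpr hnum)

end Cfsg.Agent.Lib.Helper73.SCN
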