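import Cfsg.Agent.Lib.Helper73.SCN.DIH
import Cfsg.Agent.Lib.Helper7.PSL2TorEx
import Cfsg.Agent.Lib.Helper7.PSL2Num

/-! Ladder SCN, rung PSLF: `PSL₂(q)`, `q` odd, with the property SC has `q = 2 ^ k ± 1`. -/

set_option autoImplicit false

namespace Cfsg.Agent.Lib.Helper73.SCN

open Cfsg.Agent.Lib.Helper7 Cfsg.Agent.Lib.Helper7.PMax

theorem card_of_sc_psl (F : Type) [Field F] [Fintype F] (hodd : Odd (Fintype.card F))
    (h : SC (Matrix.ProjectiveSpecialLinearGroup (Fin 2) F)) :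
    ∃ k : ℕ, Fintype.card F = 2 ^ k + 1 ∨ Fintype.card F = 2 ^ k - 1 := by
  obtain ⟨t, ht⟩ := hodd
  have hq2 : 2 ≤ Fintype.card F := Fintype.one_lt_card
  have h2 : (2 : F) ≠ 0 := by
    intro h0
    have := even_card_of_two_eq h0
    rw [ht] at this
    exact (Nat.not_even_iff_odd.2 ⟨t, rfl⟩) this
  have hz : zc F = 2 := zc_of_two_ne h2
  by_cases ht3 : t < 3
  · have : t = 1 ∨ t = 2 := by omega
    rcases this with rfl | rfl
    · exact ⟨1, Or.inl (by rw [ht]; norm_num)⟩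
    · exact ⟨2, Or.inl (by rw [ht]; norm_num)⟩
  push Not at ht3
  rcases Nat.even_or_odd t with hev | hod
  · obtain ⟨x, hs, hx⟩ := exists_torus_minus (F := F) (by omega)
    obtain ⟨-, ⟨e⟩⟩ := img_torN_dihedral (n := t) hs (by omega) (by rw [hx, hz, ht]; omega)
      (by rw [hx, ht]; omega)
    have hD : SC (DihedralGroup t) := (h.subgroup _).of_equiv e
    rcases (sc_dihedral_iff t ht3).1 hD with h3 | ⟨k, hk⟩
    · exact absurd hev (Nat.not_even_iff_odd.2 h3)
    · exact ⟨k + 1, Or.inl (by rw [ht, hk, pow_succ']) ⟩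
  · obtain ⟨x, hs, hx⟩ := exists_torus_plus (F := F)
    obtain ⟨-, ⟨e⟩⟩ := img_torN_dihedral (n := t + 1) hs (by omega) (by rw [hx, hz, ht]; omega)
      (by rw [hx, ht]; omega)
    have hD : SC (DihedralGroup (t + 1)) := (h.subgroup _).of_equiv e
    rcases (sc_dihedral_iff (t + 1) (by omega)).1 hD with h3 | ⟨k, hk⟩
    · exact absurd hod.add_one (Nat.not_even_iff_odd.2 h3)
    · refine ⟨k + 1, Or.inr ?_⟩
      rw [ht, pow_succ', ← hk]
      omega

end Cfsg.Agent.Lib.Helper73.SCN
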