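import Mathlib
import Cfsg.Agent.Lib.Helper73.SCN.Defs
import Cfsg.Agent.Lib.Helper26.QDFusion2

set_option autoImplicit false

namespace Cfsg.Agent.Lib.Helper73.SCN

open Cfsg.Agent.Lib.Helper25 Cfsg.Agent.Lib.Helper26

theorem no_semidihedral {G : Type*} [Group G] [Finite G] [IsSimpleGroup G]
    (hna : ¬ IsMulCommutative G) (S : Sylow 2 G) (n : ℕ) (a b : G) (hn : 4 ≤ n)
    (hcard : Nat.card (S : Subgroup G) = 2 ^ n) (ha : a ∈ (S : Subgroup G))
    (hb : b ∈ (S : Subgroup G)) (hoa : orderOf a = 2 ^ (n - 1))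
    (hba : b ∉ Subgroup.zpowers a) (hb2 : b ^ 2 = 1)
    (hrel : b * a * b⁻¹ = a ^ (2 ^ (n - 2) - 1))
    (hC : Subgroup.centralizer ({a ^ (2 ^ (n - 2))} : Set G) = (S : Subgroup G)) : False := by
  obtain ⟨m, rfl⟩ : ∃ m, n = m + 1 := ⟨n - 1, by omega⟩
  have e1 : m + 1 - 1 = m := by omega
  have e2 : m + 1 - 2 = m - 1 := by omega
  rw [e1] at hoa
  rw [e2] at hrel hC
  have hb1 : b ≠ 1 := by
    rintro rfl
    exact hba (Subgroup.one_mem _)
  let D : QDData (S : Subgroup G) :=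
    { n := m
      hn := by omega
      card := hcard
      x := ⟨a, ha⟩
      y := ⟨b, hb⟩
      hx := by rw [Subgroup.orderOf_mk, hoa]
      hy := by
        rw [Subgroup.orderOf_mk]
        exact orderOf_eq_prime hb2 hb1
      hxy := by
        apply Subtype.ext
        simpa using hrel }
  have hDn : D.n = m := rfl
  have hrh : rG D D.h = a ^ (2 ^ (m - 1)) := by
    change (((⟨a, ha⟩ : (S : Subgroup G)) ^ (D.h).val : (S : Subgroup G)) : G) = _
    have hv : (D.h).val = 2 ^ (m - 1) := by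
      change ((2 : ZMod (2 ^ m)) ^ (m - 1)).val = 2 ^ (m - 1)
      have h1 : ((2 : ZMod (2 ^ m)) ^ (m - 1)) = ((2 ^ (m - 1) : ℕ) : ZMod (2 ^ m)) := by
        push_cast
        rfl
      rw [h1]
      apply ZMod.val_natCast_of_lt
      exact Nat.pow_lt_pow_right (by norm_num) (by omega)
    rw [hv]
    rfl
  have hnc : ¬ IsConj (rG D D.q) (sG D 1) := by
    intro hc
    obtain ⟨g, hg⟩ := isConj_iff.mp hc
    have h1 : g * rG D D.h * g⁻¹ = rG D D.h := by
      have s1 : rG D D.q * rG D D.q = rG D D.h := by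
        rw [rG_mul_rG, ← two_mul, D.two_q]
      have s2 : sG D 1 * sG D 1 = rG D D.h := by
        rw [sG_mul_sG]
        congr 1
        ring
      calc g * rG D D.h * g⁻¹ = (g * rG D D.q * g⁻¹) * (g * rG D D.q * g⁻¹) := by
            rw [← s1]; group
        _ = rG D D.h := by rw [hg, s2]
    have hgS : g ∈ (S : Subgroup G) := by
      rw [← hC, Subgroup.mem_centralizer_singleton_iff, ← hrh]
      calc g * rG D D.h = g * rG D D.h * g⁻¹ * g := by group
        _ = rG D D.h * g := by rw [h1]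
    rcases casesG D hgS with ⟨k, rfl⟩ | ⟨k, rfl⟩
    · rw [rG_conj_rG] at hg
      exact rG_ne_sG D _ _ hg
    · rw [sG_conj_rG] at hg
      exact rG_ne_sG D _ _ hg
  obtain ⟨K, hKn, hK2, -⟩ := exists_K_of_not_conj_four D hnc
  rcases hKn.eq_bot_or_eq_top with rfl | rfl
  · rw [Subgroup.index_bot] at hK2
    have h1 := Subgroup.card_le_card_group (S : Subgroup G)
    rw [hcard, hK2] at h1
    have h2 : 2 ^ 1 < 2 ^ (m + 1) := Nat.pow_lt_pow_right (by norm_num) (by omega)
    omega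
  · rw [Subgroup.index_top] at hK2
    omega

end Cfsg.Agent.Lib.Helper73.SCN
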