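import Cfsg.Agent.Lib.Helper73.SCN.Defs
import Cfsg.Agent.S3917
import Cfsg.Agent.S3919
import Cfsg.Agent.S0113
import Cfsg.Agent.S0646
import Cfsg.Agent.Lib.Helper59.TwoGroupRecog
import Cfsg.Agent.Lib.Helper25.ZStarMain
import Cfsg.Agent.Lib.Helper11.TwoComplement

/-! Ladder SCN, rung SYL: the Sylow 2-subgroups are dihedral or semidihedral. -/

set_option autoImplicit false

namespace Cfsg.Agent.Lib.Helper73.SCN

/-- The four-group generated by two commuting involutions. -/
theorem syl_four {G : Type*} [Group G] (z b : G) (hz : z ^ 2 = 1) (hb : b ^ 2 = 1)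
    (hzb : Commute z b) (hz1 : z ≠ 1) (hb1 : b ≠ 1) (hne : z ≠ b) :
    ∃ H : Subgroup G, ¬ IsCyclic ↥H ∧ (∀ x ∈ H, x ^ 2 = 1) ∧
      ∀ c : G, Commute z c → Commute b c → ∀ x ∈ H, x * c = c * x := by
  have hzi : z⁻¹ = z := by
    rw [inv_eq_iff_mul_eq_one, ← pow_two]; exact hz
  have hbi : b⁻¹ = b := by
    rw [inv_eq_iff_mul_eq_one, ← pow_two]; exact hb
  let H : Subgroup G :=
    { carrier := {x | ∃ i j : ℕ, x = z ^ i * b ^ j}
      mul_mem' := by
        rintro _ _ ⟨i, j, rfl⟩ ⟨k, l, rfl⟩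
        refine ⟨i + k, j + l, ?_⟩
        have h1 : b ^ j * z ^ k = z ^ k * b ^ j := ((hzb.pow_pow k j).eq).symm
        calc z ^ i * b ^ j * (z ^ k * b ^ l) = z ^ i * (b ^ j * z ^ k) * b ^ l := by group
          _ = z ^ i * (z ^ k * b ^ j) * b ^ l := by rw [h1]
          _ = z ^ (i + k) * b ^ (j + l) := by rw [pow_add, pow_add]; group
      one_mem' := ⟨0, 0, by simp⟩
      inv_mem' := by
        rintro _ ⟨i, j, rfl⟩
        refine ⟨i, j, ?_⟩
        rw [mul_inv_rev, ← inv_pow, ← inv_pow, hzi, hbi]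
        exact ((hzb.pow_pow i j).eq).symm }
  have hsq : ∀ x ∈ H, x ^ 2 = 1 := by
    rintro _ ⟨i, j, rfl⟩
    rw [(hzb.pow_pow i j).mul_pow, ← pow_mul, ← pow_mul, mul_comm i, mul_comm j, pow_mul, pow_mul,
      hz, hb, one_pow, one_pow, one_mul]
  have hzH : z ∈ H := ⟨1, 0, by simp⟩
  have hbH : b ∈ H := ⟨0, 1, by simp⟩
  refine ⟨H, ?_, hsq, ?_⟩
  · intro hc
    obtain ⟨g, hg⟩ := hc.exists_generator
    have hg2 : g ^ 2 = 1 := Subtype.ext (hsq g g.2)
    have key : ∀ x : ↥H, x = 1 ∨ x = g := by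
      intro x
      obtain ⟨k, hk⟩ := Subgroup.mem_zpowers_iff.1 (hg x)
      rcases Int.even_or_odd' k with ⟨m, rfl | rfl⟩
      · left
        rw [← hk, zpow_mul, zpow_ofNat, hg2, one_zpow]
      · right
        rw [← hk, zpow_add, zpow_mul, zpow_ofNat, hg2, one_zpow, one_mul, zpow_one]
    have h1 : (⟨z, hzH⟩ : ↥H) = g := by
      rcases key ⟨z, hzH⟩ with h | h
      · exact absurd (congrArg Subtype.val h) hz1
      · exact h
    have h2 : (⟨b, hbH⟩ : ↥H) = g := by
      rcases key ⟨b, hbH⟩ with h | h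
      · exact absurd (congrArg Subtype.val h) hb1
      · exact h
    exact hne (congrArg Subtype.val (h1.trans h2.symm))
  · rintro c hcz hcb _ ⟨i, j, rfl⟩
    exact (((hcz.pow_left i).mul_left (hcb.pow_left j))).eq

theorem sylow_type {G : Type*} [Group G] [Finite G] [IsSimpleGroup G] (hna : ¬ IsMulCommutative G)
    (h : SC G) (h2 : 2 ∣ Nat.card G) (S : Sylow 2 G) :
    ∃ (n : ℕ) (a b : G), 2 ≤ n ∧ Nat.card (S : Subgroup G) = 2 ^ n ∧ a ∈ (S : Subgroup G) ∧
      b ∈ (S : Subgroup G) ∧ orderOf a = 2 ^ (n - 1) ∧ b ∉ Subgroup.zpowers a ∧ b ^ 2 = 1 ∧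
      (b * a * b⁻¹ = a⁻¹ ∨ (4 ≤ n ∧ b * a * b⁻¹ = a ^ (2 ^ (n - 2) - 1))) := by
  have : Fact (Nat.Prime 2) := ⟨Nat.prime_two⟩
  have hP : SC ↥(S : Subgroup G) := h.subgroup _
  obtain ⟨n, hn⟩ := IsPGroup.iff_card.1 S.isPGroup'
  -- normal subgroups of odd order are trivial
  have hO : ∀ N : Subgroup G, N.Normal → Odd (Nat.card N) → N = ⊥ := by
    intro N hN hodd
    rcases hN.eq_bot_or_eq_top with h0 | h0
    · exact h0
    · exfalso
      rw [h0, Subgroup.card_top] at hodd
      exact (Nat.not_even_iff_odd.2 hodd) (even_iff_two_dvd.2 h2)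
  -- transport from the Sylow subgroup
  have transport : ∀ (a b : ↥(S : Subgroup G)), orderOf a = 2 ^ (n - 1) →
      b ∉ Subgroup.zpowers a → b ^ 2 = 1 → 2 ≤ n →
      (b * a * b⁻¹ = a⁻¹ ∨ (4 ≤ n ∧ b * a * b⁻¹ = a ^ (2 ^ (n - 2) - 1))) →
      ∃ (n : ℕ) (a b : G), 2 ≤ n ∧ Nat.card (S : Subgroup G) = 2 ^ n ∧ a ∈ (S : Subgroup G) ∧
      b ∈ (S : Subgroup G) ∧ orderOf a = 2 ^ (n - 1) ∧ b ∉ Subgroup.zpowers a ∧ b ^ 2 = 1 ∧
      (b * a * b⁻¹ = a⁻¹ ∨ (4 ≤ n ∧ b * a * b⁻¹ = a ^ (2 ^ (n - 2) - 1))) := by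
    intro a b hoa hba hb2 hn2 hrel
    refine ⟨n, a, b, hn2, hn, a.2, b.2, ?_, ?_, ?_, ?_⟩
    · rw [Subgroup.orderOf_coe]; exact hoa
    · intro hmem
      apply hba
      obtain ⟨k, hk⟩ := Subgroup.mem_zpowers_iff.1 hmem
      rw [Subgroup.mem_zpowers_iff]
      exact ⟨k, Subtype.ext (by simpa using hk)⟩
    · have := congrArg Subtype.val hb2
      simpa using this
    · rcases hrel with h1 | ⟨h4, h1⟩
      · left
        have := congrArg Subtype.val h1
        simpa using this
      · right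
        refine ⟨h4, ?_⟩
        have := congrArg Subtype.val h1
        simpa using this
  by_cases hcomm : IsMulCommutative ↥(S : Subgroup G)
  · -- the commutative case
    let _ : CommGroup ↥(S : Subgroup G) :=
      { (inferInstance : Group ↥(S : Subgroup G)) with mul_comm := hcomm.is_comm.comm }
    rcases Cfsg.Agent.S3917.result (G := ↥(S : Subgroup G)) hP with hcyc | ⟨p, hp, hcard, hexp⟩
    · exfalso
      obtain ⟨N, hN, hodd, k, hk⟩ := Cfsg.Agent.Lib.Helper11.NC_of_cyclic_sylow S hcyc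
      have hN0 := hO N hN hodd
      rw [hN0, Subgroup.index_bot] at hk
      have hG : IsPGroup 2 G := IsPGroup.of_card hk
      have htop : (S : Subgroup G) = ⊤ := by
        have h3 : Nat.card (S : Subgroup G) = Nat.card G := by
          rw [S.card_eq_multiplicity, hk, Nat.factorization_pow]
          simp [Nat.prime_two.factorization_self]
        exact Subgroup.eq_top_of_card_eq _ h3
      apply hna
      constructor
      constructor
      intro x y
      have hx : x ∈ (S : Subgroup G) := by rw [htop]; trivial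
      have hy : y ∈ (S : Subgroup G) := by rw [htop]; trivial
      exact congrArg Subtype.val (hcomm.is_comm.comm ⟨x, hx⟩ ⟨y, hy⟩)
    · have hp2 : p = 2 := by
        have h3 : p ∣ 2 ^ n := by
          rw [← hn, hcard]; exact dvd_pow_self p (by norm_num)
        exact (Nat.prime_dvd_prime_iff_eq hp Nat.prime_two).1 (hp.dvd_of_dvd_pow h3)
      subst hp2
      have hn2 : n = 2 := by
        rw [hn] at hcard
        exact Nat.pow_right_injective (le_refl 2) hcard
      subst hn2
      have hsq : ∀ x : ↥(S : Subgroup G), x ^ 2 = 1 := by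
        intro x
        have h3 := Monoid.pow_exponent_eq_one x
        rwa [hexp] at h3
      have hnt : Nontrivial ↥(S : Subgroup G) := by
        rw [← Finite.one_lt_card_iff_nontrivial, hn]; norm_num
      obtain ⟨a, ha⟩ := exists_ne (1 : ↥(S : Subgroup G))
      have hoa : orderOf a = 2 := orderOf_eq_prime (hsq a) ha
      have hex : ∃ b : ↥(S : Subgroup G), b ∉ Subgroup.zpowers a := by
        by_contra hno
        push Not at hno
        have h3 : Subgroup.zpowers a = ⊤ := by
          rw [eq_top_iff]; intro x _; exact hno x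
        have h4 : Nat.card (Subgroup.zpowers a) = 2 := by rw [Nat.card_zpowers, hoa]
        rw [h3, Subgroup.card_top, hn] at h4
        norm_num at h4
      obtain ⟨b, hb⟩ := hex
      refine transport a b (by rw [hoa]; norm_num) hb (hsq b) (le_refl 2) (Or.inl ?_)
      have h5 : a⁻¹ = a := by
        rw [inv_eq_iff_mul_eq_one, ← pow_two]; exact hsq a
      rw [h5, mul_comm b a, mul_assoc, mul_inv_cancel, mul_one]
  · -- the non-commutative case
    have hn3 : 3 ≤ n := by
      by_contra hlt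
      apply hcomm
      have hle : n ≤ 2 := by omega
      interval_cases n
      · have h3 : Subsingleton ↥(S : Subgroup G) := by
          rw [← Finite.card_le_one_iff_subsingleton, hn]; norm_num
        exact ⟨⟨fun x y => Subsingleton.elim _ _⟩⟩
      · have h3 : IsCyclic ↥(S : Subgroup G) := isCyclic_of_prime_card (p := 2) (by rw [hn]; norm_num)
        exact h3.isMulCommutative
      · exact IsPGroup.isMulCommutative_of_card_eq_prime_sq hn
    have hlcs := (Cfsg.Agent.S3919.result (G := ↥(S : Subgroup G)) hcomm n hn).1 hP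
    have hnil : Group.IsNilpotent ↥(S : Subgroup G) := (IsPGroup.of_card hn).isNilpotent
    have hclass : Group.nilpotencyClass ↥(S : Subgroup G) = n - 1 := by
      refine le_antisymm
        (Cfsg.Agent.Lib.Helper3.nilpotencyClass_le_of_card n ↥(S : Subgroup G) hn (by omega)) ?_
      by_contra hlt
      push Not at hlt
      apply hlcs
      have h1 : Group.nilpotencyClass ↥(S : Subgroup G) ≤ n - 2 := by omega
      exact Subgroup.lowerCentralSeries_eq_bot_iff_nilpotencyClass_le.2 h1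
    obtain ⟨C, hC, hCi⟩ := Cfsg.Agent.S0113.result n hn3 hn hclass
    have hna' : ∃ x y : ↥(S : Subgroup G), x * y ≠ y * x := by
      by_contra hno
      push Not at hno
      exact hcomm ⟨⟨hno⟩⟩
    obtain ⟨a, b, hoa, hba, hcases⟩ := Cfsg.Agent.S0646.result n hn3 hn C hC hCi hna'
    rcases hcases with ⟨hb2, hrel⟩ | ⟨hb2, hrel⟩ | ⟨h4, hb2, hrel⟩ | ⟨h4, hb2, hrel⟩
    · exact transport a b hoa hba hb2 (by omega) (Or.inl hrel)
    · exfalso
      have e1 : 2 ^ (n - 1) = 2 * 2 ^ (n - 2) := by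
        rw [← pow_succ']; congr 1; omega
      have e2 : 2 ^ n = 4 * 2 ^ (n - 2) := by
        have : (4 : ℕ) = 2 ^ 2 := by norm_num
        rw [this, ← pow_add]; congr 1; omega
      obtain ⟨e⟩ := Cfsg.Agent.Lib.Helper59.quaternion_recog (2 ^ (n - 2)) (by positivity) a b
        (by rw [hoa, e1]) (by rw [← pow_two]; exact hb2) hrel hba (by rw [hn, e2])
      have hcen := Cfsg.Agent.Lib.Helper25.brauer_suzuki S (n - 2) (by omega) e hO
      have hcn : (Subgroup.center G).Normal := inferInstance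
      rcases hcn.eq_bot_or_eq_top with h0 | h0
      · rw [h0, Subgroup.card_bot] at hcen
        norm_num at hcen
      · apply hna
        constructor
        constructor
        intro x y
        have hx : x ∈ Subgroup.center G := by rw [h0]; trivial
        exact ((Subgroup.mem_center_iff.1 hx) y).symm
    · exfalso
      obtain ⟨m, rfl⟩ : ∃ m, n = m + 4 := ⟨n - 4, by omega⟩
      have e1 : m + 4 - 1 = m + 3 := by omega
      have e2 : m + 4 - 2 = m + 2 := by omega
      rw [e1] at hoa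
      rw [e2] at hrel
      have ha1 : a ^ (2 ^ (m + 3)) = 1 := by rw [← hoa]; exact pow_orderOf_eq_one a
      have hz2 : (a ^ (2 ^ (m + 2))) ^ 2 = 1 := by
        rw [← pow_mul, ← pow_succ]; exact ha1
      have hz1 : a ^ (2 ^ (m + 2)) ≠ 1 := by
        apply pow_ne_one_of_lt_orderOf (by positivity)
        rw [hoa]
        exact Nat.pow_lt_pow_right (by norm_num) (by omega)
      have hb1 : b ≠ 1 := by
        rintro rfl
        exact hba (one_mem _)
      have hzb : a ^ (2 ^ (m + 2)) ≠ b := by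
        intro h0
        apply hba
        rw [← h0]
        exact Subgroup.npow_mem_zpowers a _
      have hc1 : Commute (a ^ (2 ^ (m + 2))) b := by
        have h5 : b * a ^ (2 ^ (m + 2)) * b⁻¹ = a ^ (2 ^ (m + 2)) := by
          rw [← conj_pow, hrel, ← pow_mul]
          have e3 : (1 + 2 ^ (m + 2)) * 2 ^ (m + 2) = 2 ^ (m + 2) + 2 ^ (m + 3) * 2 ^ (m + 1) := by
            ring
          rw [e3, pow_add, pow_mul, ha1, one_pow, mul_one]
        show a ^ (2 ^ (m + 2)) * b = b * a ^ (2 ^ (m + 2))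
        calc a ^ (2 ^ (m + 2)) * b = (b * a ^ (2 ^ (m + 2)) * b⁻¹) * b := by rw [h5]
          _ = b * a ^ (2 ^ (m + 2)) := by group
      have hc2 : Commute b (a ^ 2) := by
        have h5 : b * a ^ 2 * b⁻¹ = a ^ 2 := by
          rw [← conj_pow, hrel, ← pow_mul]
          have e3 : (1 + 2 ^ (m + 2)) * 2 = 2 + 2 ^ (m + 3) := by ring
          rw [e3, pow_add, ha1, mul_one]
        show b * a ^ 2 = a ^ 2 * b
        calc b * a ^ 2 = (b * a ^ 2 * b⁻¹) * b := by group
          _ = a ^ 2 * b := by rw [h5]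
      have hc3 : Commute (a ^ (2 ^ (m + 2))) (a ^ 2) := (Commute.refl a).pow_pow _ _
      obtain ⟨H, hH1, hH2, hH3⟩ := syl_four _ b hz2 hb2 hc1 hz1 hb1 hzb
      have hmem := hP.mem H hH1 (a ^ 2) (hH3 _ hc3 hc2)
      have h6 := hH2 _ hmem
      rw [← pow_mul] at h6
      have h7 := orderOf_dvd_of_pow_eq_one h6
      rw [hoa] at h7
      have h8 := Nat.le_of_dvd (by norm_num) h7
      have h9 : 2 ^ 3 ≤ 2 ^ (m + 3) := Nat.pow_le_pow_right (by norm_num) (by omega)
      omega
    · exact transport a b hoa hba hb2 (by omega) (Or.inr ⟨h4, hrel⟩)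

end Cfsg.Agent.Lib.Helper73.SCN
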